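import Groth.Agent.Etrest.RDer1

/-!
# `G.rightDerivedFunctorPlus` is the restriction to `D^+` of any unbounded right derived functor

`plusIso`: let `G : A ⥤ B` be additive, `A` with enough injectives, `RG : D(A) ⥤ D(B)` a functor with a natural
transformation `β : G.mapHomotopyCategory ⋙ Qh ⟶ Qh ⋙ RG` which is an isomorphism on K-injective complexes.  Then
`G.rightDerivedFunctorPlus ⋙ Plus.ι ≅ Plus.ι ⋙ RG`.
-/

set_option autoImplicit false
universe w w' v v' u u'
open CategoryTheory CategoryTheory.Limits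

namespace Groth.Agent.Dual.H369.PlusIso

open Groth.Agent.Etrest.RDer1

/-- The cancellation of an equivalence. -/
noncomputable def cancelEquiv {C D E : Type*} [Category* C] [Category* D] [Category* E] (e : C ⥤ D) [e.IsEquivalence]
    {F F' : D ⥤ E} (i : e ⋙ F ≅ e ⋙ F') : F ≅ F' :=
  (Functor.leftUnitor _).symm ≪≫ Functor.isoWhiskerRight e.asEquivalence.counitIso.symm F ≪≫
    Functor.associator _ _ _ ≪≫ Functor.isoWhiskerLeft _ i ≪≫ (Functor.associator _ _ _).symm ≪≫
    Functor.isoWhiskerRight e.asEquivalence.counitIso F' ≪≫ Functor.leftUnitor _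

variable {A : Type u} [Category.{v} A] [Abelian A] [HasDerivedCategory.{w} A] [EnoughInjectives A]
  {B : Type u'} [Category.{v'} B] [Abelian B] [HasDerivedCategory.{w'} B] (G : A ⥤ B) [G.Additive]
  (RG : DerivedCategory A ⥤ DerivedCategory B)
  (β : G.mapHomotopyCategory (ComplexShape.up ℤ) ⋙ DerivedCategory.Qh ⟶ DerivedCategory.Qh ⋙ RG)
  (hβ : ∀ I : CochainComplex A ℤ, I.IsKInjective →
    IsIso (β.app ((HomotopyCategory.quotient A (ComplexShape.up ℤ)).obj I)))

omit [EnoughInjectives A] in
include hβ in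
/-- Restriction to complexes of injectives of the unit of `RG`. -/
lemma isIso_whiskerLeft : IsIso (Functor.whiskerLeft ((InjectiveObject.ι A).mapHomotopyCategoryPlus ⋙
      HomotopyCategory.Plus.ι A) β) := by
  rw [NatTrans.isIso_iff_isIso_app]
  intro K
  obtain ⟨K, rfl⟩ := HomotopyCategory.Plus.quotient_obj_surjective K
  exact hβ (((InjectiveObject.ι A).mapHomologicalComplex (.up ℤ)).obj K.obj) inferInstance

/-- `D^+`-version and unbounded version of the right derived functor agree on `D^+`. -/
noncomputable def plusIso :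
    G.rightDerivedFunctorPlus ⋙ DerivedCategory.Plus.ι ≅ DerivedCategory.Plus.ι ⋙ RG :=
  haveI := isIso_whiskerLeft G RG β hβ
  let e := asIso (Functor.whiskerLeft ((InjectiveObject.ι A).mapHomotopyCategoryPlus ⋙
        HomotopyCategory.Plus.ι A) β)
  Functor.isoWhiskerRight (RGIso G) DerivedCategory.Plus.ι ≪≫
  cancelEquiv (injD A) (F := Etrest.RDer1.RG G ⋙ DerivedCategory.Plus.ι)
    (F' := DerivedCategory.Plus.ι ⋙ RG)
    (Functor.isoWhiskerRight (RGinj G) DerivedCategory.Plus.ι ≪≫ e)

end Groth.Agent.Dual.H369.PlusIso
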