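import Groth.Prelude.Def_Dual3
import Groth.Agent.Dcoh.DerSch
import Groth.Agent.Dual.H369.PlusIso

/-!
# The unbounded derived functor `R Hom(O_Z, -)` of a closed immersion

For a morphism `i : Z ⟶ X` with `[Dual3.HasHomO i]` (`i_*` on modules has the right adjoint `Dual3.homO i`):
* `RhomO i : DCoh.D X ⥤ DCoh.D Z` the unbounded right derived functor of `Dual3.homO i`, with unit `RhomOUnit i`
  (an isomorphism on K-injective complexes);
* `pushRhomOAdj i : Dual3.pushD i ⊣ RhomO i`;
* `plusIso i : Dual3.RHomOPlus i ⋙ DerivedCategory.Plus.ι ≅ DerivedCategory.Plus.ι ⋙ RhomO i`.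
-/

set_option autoImplicit false
universe u
open CategoryTheory CategoryTheory.Limits AlgebraicGeometry
attribute [local instance] HasDerivedCategory.standard

namespace Groth.Agent.Dual.H369.HomOAdj

open Groth.Agent.Dcoh.DerAbs Groth.Agent.Dcoh.DerHo Groth.Agent.Dcoh.DerAdj
  Groth.Agent.Dcoh.DerComp Groth.Agent.Dcoh.DerSch

variable {Z X : Scheme.{u}} (i : Z ⟶ X) [Dual3.HasHomO i]

theorem hasRhomO : (mapQh (Dual3.homO i)).HasRightDerivedFunctor (qis X.Modules) :=
  hasRightDerivedFunctor (hasKInj X) _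

/-- The unbounded derived functor `R Hom(O_Z, -) : D(O_X) ⥤ D(O_Z)`. -/
noncomputable def RhomO : DCoh.D X ⥤ DCoh.D Z :=
  haveI := hasRhomO i
  (mapQh (Dual3.homO i)).totalRightDerived DerivedCategory.Qh (qis X.Modules)

/-- The unit of `RhomO i`. -/
noncomputable def RhomOUnit : mapQh (Dual3.homO i) ⟶ DerivedCategory.Qh ⋙ RhomO i :=
  haveI := hasRhomO i
  (mapQh (Dual3.homO i)).totalRightDerivedUnit DerivedCategory.Qh (qis X.Modules)

instance : (RhomO i).IsRightDerivedFunctor (RhomOUnit i) (qis X.Modules) := by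
  have := hasRhomO i
  dsimp [RhomO, RhomOUnit]
  infer_instance

/-- The unit of `RhomO i` is an isomorphism on K-injective complexes. -/
lemma isIso_RhomOUnit_app (I : CochainComplex X.Modules ℤ) (hI : I.IsKInjective) :
    IsIso ((RhomOUnit i).app ((HomotopyCategory.quotient _ _).obj I)) :=
  isIso_unit_app' (hasKInj X) (RhomO i) (RhomOUnit i) I hI

/-- The unit of `RhomO i` on complexes. -/
noncomputable def RhomOUnitQ :
    (Dual3.homO i).mapHomologicalComplex (ComplexShape.up ℤ) ⋙ DerivedCategory.Q ⟶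
      DerivedCategory.Q ⋙ RhomO i :=
  unitQ (Dual3.homO i) (RhomO i) (RhomOUnit i)

lemma isIso_RhomOUnitQ_app (I : CochainComplex X.Modules ℤ) (hI : I.IsKInjective) :
    IsIso ((RhomOUnitQ i).app I) :=
  isIso_unitQ_app _ _ _ _ (isIso_RhomOUnit_app i I hI)

/-- `RhomO i` is computed by `homO i` on K-injective complexes. -/
noncomputable def RhomOIso (I : CochainComplex X.Modules ℤ) (hI : I.IsKInjective) :
    (RhomO i).obj (DerivedCategory.Q.obj I) ≅
      DerivedCategory.Q.obj (((Dual3.homO i).mapHomologicalComplex (ComplexShape.up ℤ)).obj I) :=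
  haveI := isIso_RhomOUnitQ_app i I hI
  (asIso ((RhomOUnitQ i).app I)).symm

/-- `R Hom(O_Z, -)` on `D^+` is the restriction of the unbounded one. -/
noncomputable def plusIso [EnoughInjectives X.Modules] :
    Dual3.RHomOPlus i ⋙ (DerivedCategory.Plus.ι : DerivedCategory.Plus Z.Modules ⥤ DCoh.D Z) ≅
      (DerivedCategory.Plus.ι : DerivedCategory.Plus X.Modules ⥤ DCoh.D X) ⋙ RhomO i :=
  PlusIso.plusIso (Dual3.homO i) (RhomO i) (RhomOUnit i) (isIso_RhomOUnit_app i)

section

variable [PreservesFiniteLimits (Scheme.Modules.pushforward i)]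
  [PreservesFiniteColimits (Scheme.Modules.pushforward i)]

instance : (Dual3.pushD i).IsLeftDerivedFunctor
    (Scheme.Modules.pushforward i).mapDerivedCategoryFactorsh.hom (qis Z.Modules) :=
  isLeftDerivedFunctor_mapDerivedCategory _

/-- `i_* ⊣ R Hom(O_Z, -)` on unbounded derived categories. -/
noncomputable def pushRhomOAdj : Dual3.pushD i ⊣ RhomO i :=
  derivedAdj (Dual3.homOAdj i) (hasKInj X) (leftDataExact _)
    (Dual3.pushD i) (Scheme.Modules.pushforward i).mapDerivedCategoryFactorsh.hom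
    (RhomO i) (RhomOUnit i)

end

end Groth.Agent.Dual.H369.HomOAdj
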