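import Groth.Prelude.Def_Dual3
import Groth.Prelude.Def_DCoh4
import Groth.Agent.Dcoh.ModTens
import Groth.Agent.Dcoh.DerPull
import Groth.Agent.Dcoh.ClosedProj
import Groth.Agent.Dcoh.TensSingle
import Groth.Agent.Dcoh.TMod
import Groth.Agent.PerfB.TensUnit

/-!
# `- ⊗^L i_* O_Z` for a closed immersion `i : Z ⟶ X`

* `tensorPushUnit i : tensorBi.flip.obj (i_* O_Z) ≅ i^* ⋙ i_*` on modules;
* `tensorIso i E e : Lpull i ⋙ pushD i ≅ LTensorCx E` for every complex `E` with `Q E ≅ (i_* O_Z)[0]`.
-/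

set_option autoImplicit false
universe u
open CategoryTheory CategoryTheory.Limits AlgebraicGeometry MonoidalCategory
attribute [local instance] HasDerivedCategory.standard

open scoped Groth.Agent.Dcoh.MonCat Groth.Agent.Dcoh.ModD

namespace Groth.Agent.Dual.H369.TensClosed

open Groth.Agent.Dcoh Groth.Agent.Dcoh.MonCx Groth.Agent.Dcoh.MonD Groth.Agent.Dcoh.ModD

variable {Z X : Scheme.{u}} (i : Z ⟶ X)

/-- `O_Z ⊗ N ≅ N`. -/
noncomputable def unitTens : (DCoh.tensorBi (X := Z)).obj (Coh.structureModule Z) ≅ 𝟭 Z.Modules :=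
  TMod.braidIso (Coh.structureModule Z) ≪≫ PerfB.TensUnit.tensorUnit

/-- `i_* O_Z ⊗ M ≅ i_* i^* M`, natural in `M`. -/
noncomputable def projUnit [IsClosedImmersion i] :
    (DCoh.tensorBi (X := X)).obj ((Scheme.Modules.pushforward i).obj (Coh.structureModule Z)) ≅
      Scheme.Modules.pullback i ⋙ Scheme.Modules.pushforward i :=
  haveI := fun M => ClosedProj.isIso_proj i (Coh.structureModule Z) M
  (NatIso.ofComponents (fun M => asIso (ClosedProj.proj i (Coh.structureModule Z) M))
    (fun φ => ClosedProj.proj_naturality_right i (Coh.structureModule Z) φ) :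
    (DCoh.tensorBi (X := X)).obj ((Scheme.Modules.pushforward i).obj (Coh.structureModule Z)) ≅
      Scheme.Modules.pullback i ⋙ (DCoh.tensorBi (X := Z)).obj (Coh.structureModule Z) ⋙
        Scheme.Modules.pushforward i) ≪≫
  Functor.isoWhiskerLeft (Scheme.Modules.pullback i)
    (Functor.isoWhiskerRight (unitTens (Z := Z)) (Scheme.Modules.pushforward i))

/-- `M ⊗ i_* O_Z ≅ i_* i^* M`, natural in `M`. -/
noncomputable def tensorPushUnit [IsClosedImmersion i] :
    (DCoh.tensorBi (X := X)).flip.obj ((Scheme.Modules.pushforward i).obj (Coh.structureModule Z)) ≅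
      Scheme.Modules.pullback i ⋙ Scheme.Modules.pushforward i :=
  TMod.flipIso _ ≪≫ (TMod.braidIso _).symm ≪≫ projUnit i

/-- The complex `i_* O_Z` in degree `0`. -/
noncomputable abbrev E₀ : CochainComplex X.Modules ℤ :=
  (HomologicalComplex.single X.Modules (ComplexShape.up ℤ) 0).obj
    ((Scheme.Modules.pushforward i).obj (Coh.structureModule Z))

/-- `K ⊗ E₀ ≅ i_* i^* K` on complexes. -/
noncomputable def cxIso [IsClosedImmersion i] :
    tensorRight (E₀ i) ≅ (Scheme.Modules.pullback i).mapHomologicalComplex (ComplexShape.up ℤ) ⋙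
      (Scheme.Modules.pushforward i).mapHomologicalComplex (ComplexShape.up ℤ) :=
  ((NatIso.mapHomologicalComplex (tensorPushUnit i).symm (ComplexShape.up ℤ) ≪≫
    TensSingle.singleRightIso DCoh.tensorBi _).symm : DCoh.tensorCx.flip.obj (E₀ i) ≅ _)

section

variable [IsClosedImmersion i] [DCoh.HasLpull i]
  [PreservesFiniteLimits (Scheme.Modules.pushforward i)]
  [PreservesFiniteColimits (Scheme.Modules.pushforward i)]

/-- The counit for `Li^* ⋙ i_*`. -/
noncomputable def counitα : DerivedCategory.Q ⋙ (DCoh.Lpull i ⋙ Dual3.pushD i) ⟶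
    tensorRight (E₀ i) ⋙ DerivedCategory.Q :=
  (Functor.associator _ _ _).inv ≫
    Functor.whiskerRight (DerPull.lpullCounitQ i) (Dual3.pushD i) ≫
    (Functor.associator _ _ _).hom ≫
    Functor.whiskerLeft ((Scheme.Modules.pullback i).mapHomologicalComplex (ComplexShape.up ℤ))
      (Scheme.Modules.pushforward i).mapDerivedCategoryFactors.hom ≫
    (Functor.associator _ _ _).inv ≫
    Functor.whiskerRight (cxIso i).inv DerivedCategory.Q

lemma isIso_counitα_app (K : CochainComplex X.Modules ℤ) (hK : DCoh.IsKFlat K) :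
    IsIso ((counitα i).app K) := by
  have := DerPull.isIso_lpullCounitQ_app i K hK
  dsimp [counitα]
  infer_instance

instance isLeftDerivedFunctor_counitα :
    (DCoh.Lpull i ⋙ Dual3.pushD i).IsLeftDerivedFunctor (counitα i)
      (HomologicalComplex.quasiIso X.Modules (ComplexShape.up ℤ)) :=
  (MonDer.leftData_tensorRight (KF X) (E₀ i)).isLeftDerivedFunctor (L₀ := DerivedCategory.Q)
    (DerivedCategory.quotientCompQhIso X.Modules) (fun f hf =>
      (HomotopyCategory.quotient_map_mem_quasiIso_iff f).1 hf) _ _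
    (fun K hK => isIso_counitα_app i K hK)

/-- `i_* Li^* K ≅ K ⊗ᴸ i_* O_Z` in the monoidal category `D(O_X)`. -/
noncomputable def tensorRightIso :
    DCoh.Lpull i ⋙ Dual3.pushD i ≅ tensorRight (DerivedCategory.Q.obj (E₀ i)) :=
  MonDer.derivedIso (KF X) (E₀ i) (tensorRight (E₀ i) ⋙ DerivedCategory.Q) (Iso.refl _)
    (DCoh.Lpull i ⋙ Dual3.pushD i) (counitα i)

/-- `i_* Li^* ≅ - ⊗ᴸ E` for every complex `E` representing `i_* O_Z`. -/
noncomputable def tensorIso (E : CochainComplex X.Modules ℤ)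
    (e : DCoh.toD X E ≅ DCoh.inD X ((Scheme.Modules.pushforward i).obj (Coh.structureModule Z)))
    [DCoh.HasLTensorCx E] : DCoh.Lpull i ⋙ Dual3.pushD i ≅ DCoh.LTensorCx E :=
  tensorRightIso i ≪≫ (tensoringRight (DCoh.D X)).mapIso e.symm ≪≫ (ModTens.LTensorCxIso E).symm

end

end Groth.Agent.Dual.H369.TensClosed
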