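import Groth.Agent.Dual.H369.HomOAdj
import Groth.Agent.Dual.H369.TensClosed
import Groth.Agent.PerfC.LpullFlat

/-!
# `i_* R Hom(O_Z, -) ≅ R Hom(i_* O_Z, -)` on unbounded derived categories

For a closed immersion `i : Z ⟶ X` and any complex `E` with `Q E ≅ (i_* O_Z)[0]`:
`pushRhomOIso i E e : RhomO i ⋙ Dual3.pushD i ≅ DCoh.RSheafHom E`, from `i_* Li^* ≅ - ⊗ᴸ E` by uniqueness of right
adjoints; `plusPushIso i E e` is the version on `D^+` for `Dual3.RHomOPlus i`.
-/

set_option autoImplicit false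
universe u
open CategoryTheory CategoryTheory.Limits AlgebraicGeometry
attribute [local instance] HasDerivedCategory.standard

namespace Groth.Agent.Dual.H369.HomOTens

variable {Z X : Scheme.{u}} (i : Z ⟶ X) [IsClosedImmersion i] [Dual3.HasHomO i]
  [PreservesFiniteLimits (Scheme.Modules.pushforward i)]
  [PreservesFiniteColimits (Scheme.Modules.pushforward i)]

/-- `Li^* ⊣ i_*`. -/
noncomputable def lpullPushAdj [DCoh.HasLpull i] : DCoh.Lpull i ⊣ Dual3.pushD i :=
  haveI := Dcoh.DerSch.hasRpush i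
  (Dcoh.DerPull.lpullAdj i).ofNatIsoRight (PerfC.LpullFlat.rpushIso i)

/-- `i_* R Hom(O_Z, -) ≅ R Hom(i_* O_Z, -)` as functors `D(O_X) ⥤ D(O_X)`. -/
noncomputable def pushRhomOIso (E : CochainComplex X.Modules ℤ)
    (e : DCoh.toD X E ≅ DCoh.inD X ((Scheme.Modules.pushforward i).obj (Coh.structureModule Z)))
    [DCoh.HasLTensorCx E] [DCoh.HasRSheafHom E] :
    HomOAdj.RhomO i ⋙ Dual3.pushD i ≅ DCoh.RSheafHom E :=
  haveI := Dcoh.DerPull.hasLpull i
  Adjunction.rightAdjointUniq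
    (((lpullPushAdj i).comp (HomOAdj.pushRhomOAdj i)).ofNatIsoLeft (TensClosed.tensorIso i E e))
    (DCoh.RSheafHomAdj E)

/-- `i_* R Hom(O_Z, -) ≅ R Hom(i_* O_Z, -)` as functors `D^+(O_X) ⥤ D(O_X)`. -/
noncomputable def plusPushIso [EnoughInjectives X.Modules] (E : CochainComplex X.Modules ℤ)
    (e : DCoh.toD X E ≅ DCoh.inD X ((Scheme.Modules.pushforward i).obj (Coh.structureModule Z)))
    [DCoh.HasLTensorCx E] [DCoh.HasRSheafHom E] :
    Dual3.RHomOPlus i ⋙ (DerivedCategory.Plus.ι : DerivedCategory.Plus Z.Modules ⥤ DCoh.D Z) ⋙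
        Dual3.pushD i ≅
      (DerivedCategory.Plus.ι : DerivedCategory.Plus X.Modules ⥤ DCoh.D X) ⋙ DCoh.RSheafHom E :=
  (Functor.associator _ _ _).symm ≪≫
    Functor.isoWhiskerRight (HomOAdj.plusIso i) (Dual3.pushD i) ≪≫
    Functor.associator _ _ _ ≪≫ Functor.isoWhiskerLeft _ (pushRhomOIso i E e)

end Groth.Agent.Dual.H369.HomOTens
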